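import Mathlib
import Cfsg.Agent.Comp2.Pump
import Cfsg.Agent.Comp2.Sig1
import Cfsg.Agent.Char.Central

/-! Quadratic action on modules and components, part one: odd characteristic. -/

namespace Cfsg.Agent.Comp2

open Cfsg Subgroup Cfsg.Agent.BG
open scoped Pointwise commutatorElement

theorem not_pow_cent {G : Type*} [Group G] [Finite G] {K : Subgroup G} (hK : IsQuasisimple K)
    {p q : ℕ} (hp : p.Prime) (hq : q.Prime) (h : ∀ k ∈ K, k ^ p ∈ 𝐂(K) ∨ k ^ q ∈ 𝐂(K)) : False := by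
  have h1 : Group.IsSolvable (K ⧸ center K) := Char.burnside_of_primes hp hq fun r hr hd => by
    haveI := Fact.mk hr
    obtain ⟨x, hx⟩ := exists_prime_orderOf_dvd_card' r hd
    obtain ⟨k, rfl⟩ := QuotientGroup.mk_surjective x
    have key : ∀ n : ℕ, n.Prime → (k : G) ^ n ∈ 𝐂(K) → r = n := fun n hn hc => by
      refine (Nat.prime_dvd_prime_iff_eq hr hn).1 (hx ▸ orderOf_dvd_of_pow_eq_one ?_)
      rw [← QuotientGroup.mk_pow, QuotientGroup.eq_one_iff, mem_center_iff]
      exact fun g => Subtype.ext (hc g g.2)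
    exact (h k k.2).imp (key p hp) (key q hq)
  haveI := hK.2
  exact quasisimple_quotient_not_isMulCommutative hK
    ⟨⟨IsSimpleGroup.comm_iff_isSolvable.2 h1⟩⟩

variable {H X : Type*} [Group H] [AddCommGroup X] {p : ℕ} [hp : Fact p.Prime] [Module (ZMod p) X]
  {ρ : Representation (ZMod p) H X} {K A B : Subgroup H}

/-- A subspace invariant under a component and fixed by an element not centralizing the
component is fixed by the component. -/
theorem fix_of_inv (hK : IsComponent K) (U : Submodule (ZMod p) X)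
    (hU : ∀ k ∈ K, ∀ u ∈ U, ρ k u ∈ U) {g : H} (hg : g ∉ 𝐂(K)) (h : ∀ u ∈ U, ρ g u = u) :
    ∀ k ∈ K, ∀ u ∈ U, ρ k u = u := by
  let N : Subgroup H :=
    { carrier := {g | ∀ u ∈ U, ρ g u = u}
      mul_mem' := fun {x y} hx hy u hu => by rw [map_mul, Module.End.mul_apply, hy u hu, hx u hu]
      one_mem' := fun u _ => by rw [map_one, Module.End.one_apply]
      inv_mem' := fun {x} hx u hu => by
        conv_lhs => rw [← hx u hu]
        rw [← Module.End.mul_apply, ← map_mul, inv_mul_cancel, map_one, Module.End.one_apply] }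
  have hN : K ≤ 𝐍(N) := Amb.le_norm_of_conj_mem fun k hk x hx u hu => by
    rw [map_mul, map_mul, Module.End.mul_apply, Module.End.mul_apply, hx _ (hU _ (K.inv_mem hk) u hu),
      ← Module.End.mul_apply, ← map_mul, mul_inv_cancel, map_one, Module.End.one_apply]
  rcases component_le_or_commutator_eq_bot_of_normalizes hK hN with h1 | h1
  · exact fun k hk => h1 hk
  · exact absurd (Amb.le_cent_iff_comm_eq_bot'.2 h1 h) hg

/-- The configuration of the theorem for a faithful irreducible module. -/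
structure PGV (ρ : Representation (ZMod p) H X) (K A B : Subgroup H) : Prop where
  inj : Function.Injective ρ
  irr : ∀ U : Submodule (ZMod p) X, (∀ k ∈ K, ∀ u ∈ U, ρ k u ∈ U) → (∀ a ∈ A, ∀ u ∈ U, ρ a u ∈ U) →
    U = ⊥ ∨ U = ⊤
  comp : IsComponent K
  elem : IsElementaryAbelian p A
  le : B ≤ A
  quad : ∀ b ∈ B, ∀ a ∈ A, (ρ b - 1) * (ρ a - 1) = 0
  ne : B ≠ ⊥
  card : Nat.card X ≤ Nat.card B * Nat.card {v : X // ∀ b ∈ B, ρ b v = v}

namespace PGV

theorem one_of (s : PGV ρ K A B) {g : H} (h : ρ g = 1) : g = 1 := s.inj (by rw [h, map_one])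

theorem nontriv (s : PGV ρ K A B) : Nontrivial X := by
  by_contra h
  rw [not_nontrivial_iff_subsingleton] at h
  exact s.ne (eq_bot_iff.2 fun b _ => s.one_of (Subsingleton.elim _ _))

theorem charP (s : PGV ρ K A B) : CharP (Module.End (ZMod p) X) p :=
  haveI := s.nontriv
  charP_of_injective_algebraMap (algebraMap (ZMod p) _).injective p

theorem schur (s : PGV ρ K A B) {T : Module.End (ZMod p) X} (h1 : ∀ k ∈ K, Commute T (ρ k))
    (h2 : ∀ a ∈ A, Commute T (ρ a)) : T = 0 ∨ Function.Injective T := by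
  have key : ∀ g, Commute T (ρ g) → ∀ u ∈ LinearMap.ker T, ρ g u ∈ LinearMap.ker T :=
    fun g hg u hu => by
      rw [LinearMap.mem_ker, ← Module.End.mul_apply, hg.eq, Module.End.mul_apply,
        LinearMap.mem_ker.1 hu, map_zero]
  rcases s.irr (LinearMap.ker T) (fun k hk => key k (h1 k hk)) fun a ha => key a (h2 a ha) with h | h
  · exact Or.inr (LinearMap.ker_eq_bot.1 h)
  · exact Or.inl (LinearMap.ker_eq_top.1 h)

theorem comm (s : PGV ρ K A B) {a c : H} (ha : a ∈ A) (hc : c ∈ A) : Commute (ρ a) (ρ c) :=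
  (show Commute a c from elem_comm s.elem ha hc).map ρ

theorem cent_triv (s : PGV ρ K A B) {a : H} (ha : a ∈ A) (h : a ∈ 𝐂(K)) : a = 1 := by
  haveI := s.charP
  haveI := s.nontriv
  rcases s.schur (T := ρ a - 1) (fun k hk => ((show Commute a k from (h k hk).symm).map ρ).sub_left
    (Commute.one_left _)) fun c hc => (s.comm ha hc).sub_left (Commute.one_left _) with h1 | h1
  · exact s.one_of (sub_eq_zero.1 h1)
  · have h2 : (ρ a - 1) ^ p = 0 := by
      rw [sub_pow_char_of_commute _ (Commute.one_right _), ← map_pow, s.elem.2 a ha, map_one,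
        one_pow, sub_self]
    obtain ⟨v, hv⟩ := exists_ne (0 : X)
    exact absurd ((Module.End.iterate_injective h1 p) (by rw [h2]; simp)) hv

theorem zero_of_fix (s : PGV ρ K A B) {v : X} (h : ∀ c ∈ A, ∀ k ∈ K, ρ (c * k * c⁻¹) v = v) :
    v = 0 := by
  let U : Submodule (ZMod p) X :=
    { carrier := {v | ∀ c ∈ A, ∀ k ∈ K, ρ (c * k * c⁻¹) v = v}
      add_mem' := fun hx hy c hc k hk => by rw [map_add, hx c hc k hk, hy c hc k hk]
      zero_mem' := fun _ _ _ _ => map_zero _
      smul_mem' := fun t x hx c hc k hk => by rw [map_smul, hx c hc k hk] }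
  have h1 : ∀ u ∈ U, ∀ k ∈ K, ρ k u = u := fun u hu k hk => by simpa using hu 1 A.one_mem k hk
  rcases s.irr U (fun k hk u hu => by rwa [h1 u hu k hk]) (fun a ha u hu c hc k hk => by
    have h2 := hu (a⁻¹ * c) (A.mul_mem (A.inv_mem ha) hc) k hk
    conv_rhs => rw [← h2]
    rw [← Module.End.mul_apply, ← Module.End.mul_apply, ← map_mul, ← map_mul]
    congr 2; group) with h2 | h2
  · have h3 : v ∈ U := h
    rwa [h2, Submodule.mem_bot] at h3
  · refine absurd (eq_bot_iff.2 fun k hk => s.one_of (LinearMap.ext fun u => ?_))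
      (component_ne_bot s.comp)
    exact h1 u (h2 ▸ Submodule.mem_top) k hk

theorem quad' (s : PGV ρ K A B) {a b : H} (hb : b ∈ B) (ha : a ∈ A) : (ρ a - 1) * (ρ b - 1) = 0 := by
  rw [← s.quad b hb a ha]
  exact (((s.comm ha (s.le hb)).sub_left (Commute.one_left _)).sub_right (Commute.one_right _)).eq

theorem mul_left (s : PGV ρ K A B) {a b : H} (hb : b ∈ B) (ha : a ∈ A) :
    ρ a * (ρ b - 1) = ρ b - 1 := by
  have := s.quad' hb ha
  rwa [sub_mul, one_mul, sub_eq_zero] at this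

theorem mul_right (s : PGV ρ K A B) {a b : H} (hb : b ∈ B) (ha : a ∈ A) :
    (ρ b - 1) * ρ a = ρ b - 1 := by
  have := s.quad b hb a ha
  rwa [mul_sub, mul_one, sub_eq_zero] at this

theorem two_Y (s : PGV ρ K A B) {b : H} (hb : b ∈ B) (k : H) :
    2 * ((ρ b - 1) * ρ k * (ρ b - 1)) = 2 * ρ k - (ρ (b * k * b⁻¹) + ρ (b⁻¹ * k * b)) := by
  have h1 := s.quad b hb b (s.le hb)
  have h2 : ρ b⁻¹ = 1 - (ρ b - 1) := by
    have h3 := s.mul_left hb (A.inv_mem (s.le hb))
    rw [mul_sub, ← map_mul, inv_mul_cancel, map_one, mul_one] at h3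
    rw [← h3, sub_sub_cancel]
  have h3 : ρ b = 1 + (ρ b - 1) := by abel
  rw [map_mul, map_mul, map_mul, map_mul, h2]
  generalize ρ b - 1 = β at h1 h3
  rw [h3]
  noncomm_ring

theorem conj_comp (s : PGV ρ K A B) (c : H) : IsComponent (MulAut.conj c • K) :=
  component_conj s.comp c

theorem comm_conj (s : PGV ρ K A B) {c d k l : H} (h : MulAut.conj c • K ≠ MulAut.conj d • K)
    (hk : k ∈ MulAut.conj c • K) (hl : l ∈ MulAut.conj d • K) : Commute k l :=
  commutator_eq_bot_iff_forall.1 (component_commutator_eq_bot_of_ne (s.conj_comp c) (s.conj_comp d) h)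
    k hk l hl

theorem comm_conj' (s : PGV ρ K A B) {c k l : H} (h : c ∉ 𝐍(K))
    (hk : k ∈ MulAut.conj c • K) (hl : l ∈ K) : Commute k l :=
  s.comm_conj (d := 1) (by rwa [Amb.conj_one, Ne, ← Amb.mem_normalizer_iff_conj]) hk
    (by rwa [Amb.conj_one])

theorem not_cent_conj (s : PGV ρ K A B) {b c : H} (hb : b ∈ A) (hb1 : b ≠ 1) (hc : c ∈ A) :
    b ∉ 𝐂(MulAut.conj c • K) := fun h => hb1 (s.cent_triv hb (by
  rwa [← Amb.conj_centralizer, Amb.mem_conj, mul_assoc, elem_comm s.elem hb hc,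
    inv_mul_cancel_left] at h))

theorem two_unit (s : PGV ρ K A B) (h2 : p ≠ 2) : IsUnit (2 : Module.End (ZMod p) X) := by
  have h1 : IsUnit ((2 : ℕ) : ZMod p) := by
    rw [ZMod.isUnit_iff_coprime]
    exact (Nat.coprime_primes Nat.prime_two hp.out).2 h2.symm
  have h3 := h1.map (algebraMap (ZMod p) (Module.End (ZMod p) X))
  rwa [map_natCast, Nat.cast_ofNat] at h3

theorem odd_not_norm [Finite H] (s : PGV ρ K A B) (h2 : p ≠ 2) {b : H} (hb : b ∈ B) :
    b ∈ 𝐍(K) := by
  by_contra hn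
  haveI := s.charP
  have hn' : b⁻¹ ∉ 𝐍(K) := fun h => hn (inv_mem_iff.1 h)
  refine not_pow_cent s.comp.2 hp.out hp.out fun k hk => Or.inl fun l hl => s.inj ?_
  have hc : ∀ l ∈ K, Commute (ρ (b * k * b⁻¹) + ρ (b⁻¹ * k * b)) (ρ l) := fun l hl =>
    ((s.comm_conj' hn (Amb.conj_mem_conj.2 hk) hl).map ρ).add_left
      ((s.comm_conj' hn' (by simpa using Amb.conj_mem_conj (g := b⁻¹).2 hk) hl).map ρ)
  have h1 : (2 * ρ k - (ρ (b * k * b⁻¹) + ρ (b⁻¹ * k * b))) ^ p = 0 := by
    refine pow_eq_zero_of_le hp.out.two_le ?_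
    rw [← s.two_Y hb, pow_two]
    have h3 := s.quad b hb b (s.le hb)
    generalize ρ b - 1 = β at h3
    calc 2 * (β * ρ k * β) * (2 * (β * ρ k * β)) = 4 * (β * ρ k * (β * β) * ρ k * β) := by noncomm_ring
      _ = 0 := by rw [h3]; simp
  rw [sub_pow_char_of_commute _ (((Commute.ofNat_left 2 _).mul_left (hc k hk).symm)), sub_eq_zero,
    (Commute.ofNat_left 2 _).mul_pow, ← map_pow] at h1
  have h3 := ((hc l hl).pow_left p).eq
  rw [← h1, mul_assoc, ← mul_assoc (ρ l), ((Commute.ofNat_right (ρ l) 2).pow_right p).eq,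
    mul_assoc] at h3
  rw [map_mul, map_mul]
  exact (((s.two_unit h2).pow p).mul_left_cancel h3).symm

theorem odd_norm [Finite H] (s : PGV ρ K A B) (h2 : p ≠ 2) : A ≤ 𝐍(K) := fun a ha => by
  by_contra hn
  obtain ⟨b, hb, hb1⟩ := exists_mem_ne_one s.ne
  have hbK := s.odd_not_norm h2 hb
  have hbA := s.le hb
  have hY : ∀ k ∈ K, (ρ b - 1) * ρ k * (ρ b - 1) = 0 := fun k hk => by
    have hc : ∀ c ∈ A, ∀ l ∈ MulAut.conj c • K,
        Commute (2 * ((ρ b - 1) * ρ k * (ρ b - 1))) (ρ l) := fun c hc l hl => by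
      have key : ∀ d ∈ A, MulAut.conj d • K ≠ MulAut.conj c • K → ∀ m ∈ MulAut.conj d • K,
          Commute (2 * ((ρ b - 1) * ρ m * (ρ b - 1))) (ρ l) := fun d hd hne m hm => by
        have hbd : b ∈ 𝐍(MulAut.conj d • K) := by
          rwa [← Amb.conj_normalizer, Amb.mem_conj, mul_assoc, elem_comm s.elem hbA hd,
            inv_mul_cancel_left]
        rw [s.two_Y hb]
        exact ((Commute.ofNat_left 2 _).mul_left ((s.comm_conj hne hm hl).map ρ)).sub_left
          (((s.comm_conj hne ((mem_normalizer_iff.1 hbd m).1 hm) hl).map ρ).add_left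
            ((s.comm_conj hne ((mem_normalizer_iff''.1 hbd m).1 hm) hl).map ρ))
      by_cases h : MulAut.conj c • K = K
      · have h3 := key a ha (by rwa [h, Ne, ← Amb.mem_normalizer_iff_conj]) _ (Amb.conj_mem_conj.2 hk)
        rwa [map_mul, map_mul, ← mul_assoc (ρ b - 1), ← mul_assoc (ρ b - 1), s.mul_right hb ha,
          mul_assoc _ (ρ a⁻¹), s.mul_left hb (A.inv_mem ha)] at h3
      · exact key 1 A.one_mem (by rwa [Amb.conj_one, ne_comm]) k (by rwa [Amb.conj_one])
    refine (s.two_unit h2).mul_right_eq_zero.1 (LinearMap.ext fun v => s.zero_of_fix fun c hcA l hl => ?_)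
    refine fix_of_inv (s.conj_comp c) (LinearMap.range (2 * ((ρ b - 1) * ρ k * (ρ b - 1))))
      ?_ (s.not_cent_conj hbA hb1 hcA) ?_ _ (Amb.conj_mem_conj.2 hl) _ ⟨v, rfl⟩
    · rintro m hm _ ⟨u, rfl⟩
      exact ⟨ρ m u, by rw [← Module.End.mul_apply, (hc c hcA m hm).eq, Module.End.mul_apply]⟩
    · rintro _ ⟨u, rfl⟩
      rw [← Module.End.mul_apply, ← mul_assoc, (Commute.ofNat_right (ρ b) 2).eq, mul_assoc,
        ← mul_assoc (ρ b), ← mul_assoc (ρ b), s.mul_left hb hbA]
  let U : Submodule (ZMod p) X :=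
    { carrier := {u | ∀ k ∈ K, (ρ b - 1) (ρ k u) = 0}
      add_mem' := fun hx hy k hk => by rw [map_add, map_add, hx k hk, hy k hk, add_zero]
      zero_mem' := fun _ _ => by rw [map_zero, map_zero]
      smul_mem' := fun t x hx k hk => by rw [map_smul, map_smul, hx k hk, smul_zero] }
  have h3 := fix_of_inv (ρ := ρ) s.comp U (fun k hk u hu l hl => by
    rw [← Module.End.mul_apply (ρ l), ← map_mul]; exact hu _ (K.mul_mem hl hk))
    (fun h => hb1 (s.cent_triv hbA h)) fun u hu => by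
      simpa [sub_eq_zero] using hu 1 K.one_mem
  refine hb1 (s.one_of (sub_eq_zero.1 (LinearMap.ext fun v => s.zero_of_fix fun c hc k hk => ?_)))
  have h4 := h3 k hk ((ρ b - 1) v) fun l hl => by
    rw [← Module.End.mul_apply, ← Module.End.mul_apply, hY l hl, LinearMap.zero_apply]
  rw [map_mul, map_mul, Module.End.mul_apply, Module.End.mul_apply, ← Module.End.mul_apply (ρ c⁻¹),
    s.mul_left hb (A.inv_mem hc), h4, ← Module.End.mul_apply, s.mul_left hb hc]

end PGV

end Cfsg.Agent.Comp2
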